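import Cfsg.Agent.H488.Pb.LocAbs
import Cfsg.Agent.H272.Pb.EpsTwo
import Cfsg.Agent.H55.Pb.EpsMap
import Cfsg.Agent.H623.Pb.EpsCyc

/-!
# S4822, B9: local information from explicit elements (helper488)
-/

set_option autoImplicit false

namespace Cfsg.Agent.H488.Pb

open Cfsg Cfsg.Agent.H617.Pb

universe u v w

variable {S : Type u} [Group S] [Finite S] [IsSimpleGroup S] {p : ℕ} [Fact p.Prime]

theorem epsPos : EpsPos.{u} p := fun _ _ _ _ hM N C hn => H272.Pb.eps_pos hM N C hn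

theorem epsTwo : EpsTwo.{u} p := fun _ _ _ _ hM N C hn v h hv hh hvp k hk hk1 =>
  H272.Pb.two_le_eps hM N C hn v h hv hh hvp k hk hk1

theorem epsMap : EpsMap.{u, v} p := fun _ _ _ _ hM _ _ _ N C hNC hn f => H55.Pb.eps_map hM N C hNC hn f

theorem epsCyc : EpsCyc.{u} p := fun _ _ _ _ hM N C hNC hn hC v h hv hh hvp k hk =>
  H623.Pb.eps_cyc hM N C hNC hn hC v h hv hh hvp k hk

omit [IsSimpleGroup S] in
theorem loc_one (L : Subgroup (MulAut S)) (u : S) : Loc p L u 1 := loc_one_of epsPos L u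

/-- type A: `C_S(u)` is not `p`-nilpotent -/
theorem loc_two (hS : ¬ IsMulCommutative S) (L : Subgroup (MulAut S)) (u v h : S) (hv : Commute v u) (hh : Commute h u)
    (hvp : orderOf v = p) (k : ℕ) (hk : h * v * h⁻¹ = v ^ k) (hk1 : v ^ k ≠ v) : Loc p L u 2 :=
  loc_two_of epsTwo hS L u v h hv hh hvp k hk hk1

/-- type B: Sylow `p`-subgroup of order `p²` -/
theorem loc_B (hS : ¬ IsMulCommutative S) (h3 : ¬ p ^ 3 ∣ Nat.card S) (L : Subgroup (MulAut S)) (u v h : S)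
    (hu : orderOf u = p) (hv : Commute v u) (hh : Commute h u)
    (hvp : orderOf v = p) (hvu : v ∉ Subgroup.zpowers u) (k : ℕ) (hk : h * v * h⁻¹ = v ^ k) :
    Loc p L u (orderOf (k : ZMod p)) :=
  loc_B_of epsMap epsCyc hS h3 L u v h hu hv hh hvp hvu k hk

/-- type Q: a quotient of the centralizer with Sylow `p`-subgroup of order `p`. `L' → MulAut S` is any group acting on
`S` (for instance `GL_n(q)` for `S = PSL_n(q)`) whose image contains `L` -/
theorem loc_Q (_hS : ¬ IsMulCommutative S) (L : Subgroup (MulAut S)) {L' : Type v} [Group L'] (ψ : L' →* MulAut S)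
    (hL : L ≤ ψ.range) (u : S) {Y : Type w} [Group Y] [Finite Y] (hY : ¬ p ^ 2 ∣ Nat.card Y)
    (f : ↥((Subgroup.centralizer {MulAut.conj u}).comap ψ) →* Y)
    (hf : ∀ x : ↥((Subgroup.centralizer {MulAut.conj u}).comap ψ), ψ (x : L') = 1 → f x = 1)
    (v h : S) (v' h' : ↥((Subgroup.centralizer {MulAut.conj u}).comap ψ)) (hv : ψ (v' : L') = MulAut.conj v)
    (hh : ψ (h' : L') = MulAut.conj h) (hvp : ∃ m : ℕ, orderOf v = p ^ m) (hfv : f v' ≠ 1) (k : ℕ)
    (hk : h * v * h⁻¹ = v ^ k) : Loc p L u (orderOf (k : ZMod p)) :=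
  loc_Q_of epsMap epsCyc L ψ hL u hY f hf v h v' h' hv hh hvp hfv k hk

end Cfsg.Agent.H488.Pb
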